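import Mathlib

/-!
The modules of `SL(2, F)` in characteristic three spanned by the powers of linear forms, as spaces of functions on
the punctured plane.
-/

set_option autoImplicit false
set_option linter.unusedSectionVars false

namespace CfsgLib.SLTwoDef56

open Module
open scoped MatrixGroups

variable {F : Type*} [Field F]

/-- The punctured plane. -/
abbrev Pt (F : Type*) [Field F] := {v : F × F // v ≠ 0}

/-- Row vector times matrix. -/
def vmul (v : F × F) (g : SL(2, F)) : F × F :=
  (v.1 * g 0 0 + v.2 * g 1 0, v.1 * g 0 1 + v.2 * g 1 1)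

theorem vmul_mul (v : F × F) (g h : SL(2, F)) : vmul v (g * h) = vmul (vmul v g) h := by
  simp [vmul, Matrix.SpecialLinearGroup.coe_mul, Matrix.mul_apply, Fin.sum_univ_two, Prod.ext_iff]
  constructor <;> ring

theorem vmul_one (v : F × F) : vmul v 1 = v := by
  simp [vmul]

theorem vmul_ne_zero {v : F × F} (hv : v ≠ 0) (g : SL(2, F)) : vmul v g ≠ 0 := fun h => by
  have h1 : vmul (vmul v g) g⁻¹ = v := by rw [← vmul_mul, mul_inv_cancel, vmul_one]
  rw [h] at h1
  exact hv (by rw [← h1]; simp [vmul])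

/-- The action on the punctured plane. -/
def pmul (v : Pt F) (g : SL(2, F)) : Pt F := ⟨vmul v.1 g, vmul_ne_zero v.2 g⟩

variable {K : Type*} [Field K]

/-- The action on functions. -/
def act (K : Type*) [Field K] (g : SL(2, F)) : (Pt F → K) →ₗ[K] (Pt F → K) :=
  LinearMap.funLeft K K fun v => pmul v g

theorem act_apply (g : SL(2, F)) (f : Pt F → K) (v : Pt F) : act K g f v = f (pmul v g) := rfl

theorem act_mul (g h : SL(2, F)) (f : Pt F → K) : act K (g * h) f = act K g (act K h f) := by
  funext v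
  simp [act_apply, pmul, vmul_mul]

theorem act_one (f : Pt F → K) : act K 1 f = f := by
  funext v
  simp [act_apply, pmul, vmul_one]

variable {n : ℕ}

/-- The exponent of a label. -/
def lam (a : Fin n → Fin 3) : ℕ := ∑ i, (a i : ℕ) * 3 ^ (i : ℕ)

/-- Index of a monomial. -/
abbrev Idx (a : Fin n → Fin 3) := (i : Fin n) → Fin ((a i : ℕ) + 1)

def eExp {a : Fin n → Fin 3} (k : Idx a) : ℕ := ∑ i, (k i : ℕ) * 3 ^ (i : ℕ)

def dExp {a : Fin n → Fin 3} (k : Idx a) : ℕ := ∑ i, ((a i : ℕ) - (k i : ℕ)) * 3 ^ (i : ℕ)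

/-- The multinomial coefficient of a monomial. -/
def coef (K : Type*) [Field K] {a : Fin n → Fin 3} (k : Idx a) : K :=
  ∏ i, (((a i : ℕ).choose (k i : ℕ) : ℕ) : K)

/-- The dimension of the module of a label. -/
def wdim (a : Fin n → Fin 3) : ℕ := ∏ i, ((a i : ℕ) + 1)

theorem card_idx (a : Fin n → Fin 3) : Fintype.card (Idx a) = wdim a := by
  simp [Idx, wdim]

theorem lam_inj : Function.Injective (lam (n := n)) := by
  intro a b h
  apply finFunctionFinEquiv.injective
  apply Fin.ext
  rw [finFunctionFinEquiv_apply, finFunctionFinEquiv_apply]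
  exact h

theorem lam_lt (a : Fin n → Fin 3) : lam a < 3 ^ n := by
  rw [lam, ← finFunctionFinEquiv_apply]
  exact Fin.isLt _

/-- The digits of a number as a label. -/
def digits3 (n l : ℕ) (h : l < 3 ^ n) : Fin n → Fin 3 := finFunctionFinEquiv.symm ⟨l, h⟩

theorem lam_digits3 (l : ℕ) (h : l < 3 ^ n) : lam (digits3 n l h) = l := by
  rw [lam, digits3, ← finFunctionFinEquiv_apply, Equiv.apply_symm_apply]

theorem eExp_eq_lam {a : Fin n → Fin 3} (k : Idx a) :
    eExp k = lam fun i => (⟨k i, by have := (k i).isLt; have := (a i).isLt; omega⟩ : Fin 3) := rfl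

theorem eExp_lt {a : Fin n → Fin 3} (k : Idx a) : eExp k < 3 ^ n := eExp_eq_lam k ▸ lam_lt _

theorem eExp_inj (a : Fin n → Fin 3) : Function.Injective (eExp (a := a)) := by
  intro k l h
  rw [eExp_eq_lam, eExp_eq_lam] at h
  have := lam_inj h
  funext i
  exact Fin.ext (congrArg (fun f : Fin n → Fin 3 => (f i : ℕ)) this)

theorem eExp_add_dExp {a : Fin n → Fin 3} (k : Idx a) : eExp k + dExp k = lam a := by
  rw [eExp, dExp, lam, ← Finset.sum_add_distrib]
  refine Finset.sum_congr rfl fun i _ => ?_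
  rw [← add_mul, Nat.add_sub_cancel' (Nat.lt_succ_iff.mp (k i).isLt)]

theorem dExp_lt {a : Fin n → Fin 3} (k : Idx a) : dExp k < 3 ^ n := by
  have := eExp_add_dExp k
  have := lam_lt a
  omega

theorem dExp_inj (a : Fin n → Fin 3) : Function.Injective (dExp (a := a)) := by
  intro k l h
  have h1 := eExp_add_dExp k
  have h2 := eExp_add_dExp l
  exact eExp_inj a (by omega)

theorem coef_ne_zero [CharP K 3] {a : Fin n → Fin 3} (k : Idx a) : coef K k ≠ 0 := by
  refine Finset.prod_ne_zero_iff.mpr fun i _ h => ?_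
  rw [CharP.cast_eq_zero_iff K 3] at h
  have h1 := Nat.lt_succ_iff.mp (k i).isLt
  have key : ∀ x y : Fin 3, (y : ℕ) ≤ x → ¬ 3 ∣ (x : ℕ).choose y := by decide
  have h2 := (a i).isLt
  exact key (a i) ⟨(k i : ℕ), by omega⟩ h1 h

theorem add_pow_lam [CharP K 3] (a : Fin n → Fin 3) (r s : K) :
    (r + s) ^ lam a = ∑ k : Idx a, coef K k * (r ^ eExp k * s ^ dExp k) := by
  have : Fact (Nat.Prime 3) := ⟨Nat.prime_three⟩
  have h1 : (r + s) ^ lam a =
      ∏ i, ∑ j : Fin ((a i : ℕ) + 1), r ^ ((j : ℕ) * 3 ^ (i : ℕ)) *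
        s ^ (((a i : ℕ) - j) * 3 ^ (i : ℕ)) * (((a i : ℕ).choose j : ℕ) : K) := by
    rw [lam, ← Finset.prod_pow_eq_pow_sum]
    refine Finset.prod_congr rfl fun i _ => ?_
    rw [mul_comm, pow_mul, add_pow_char_pow, add_pow, Finset.sum_range]
    refine Finset.sum_congr rfl fun j _ => ?_
    rw [← pow_mul, ← pow_mul, mul_comm ((j : ℕ)), mul_comm ((a i : ℕ) - (j : ℕ))]
  rw [h1, Fintype.prod_sum]
  refine Finset.sum_congr rfl fun k _ => ?_
  rw [Finset.prod_mul_distrib, Finset.prod_mul_distrib, Finset.prod_pow_eq_pow_sum,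
    Finset.prod_pow_eq_pow_sum, coef, eExp, dExp]
  ring

/-- Monomials of degree less than the number of elements are independent. -/
theorem sum_pow_eq_zero [Fintype F] (ι : F →+* K) {J : Type*} [Fintype J] {d : J → ℕ}
    (hd : Function.Injective d) (hlt : ∀ j, d j < Fintype.card F) {c : J → K}
    (h : ∀ t : F, ∑ j, c j * ι t ^ d j = 0) : c = 0 := by
  classical
  set P : Polynomial K := ∑ j, Polynomial.C (c j) * Polynomial.X ^ d j with hP
  have hdeg : P.natDegree < Fintype.card F := by
    refine lt_of_le_of_lt (Polynomial.natDegree_sum_le_of_forall_le (n := Fintype.card F - 1)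
      Finset.univ _ fun j _ => (Polynomial.natDegree_C_mul_X_pow_le (c j) (d j)).trans
        (by have := hlt j; omega)) ?_
    have := Fintype.card_pos (α := F)
    omega
  have hz : P = 0 := Polynomial.eq_zero_of_natDegree_lt_card_of_eval_eq_zero P ι.injective
    (fun t => by simpa [hP, Polynomial.eval_finsetSum] using h t) hdeg
  funext j
  have := congrArg (fun Q => Polynomial.coeff Q (d j)) hz
  simp only [hP, Polynomial.finsetSum_coeff, Polynomial.coeff_C_mul_X_pow, Polynomial.coeff_zero]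
    at this
  rw [Finset.sum_eq_single j (fun b _ hb => if_neg fun e => hb (hd e.symm))
    (fun h0 => absurd (Finset.mem_univ j) h0), if_pos rfl] at this
  exact this

variable (ι : F →+* K) (a : Fin n → Fin 3)

/-- The power of a linear form over `F`. -/
def gen (w : Pt F) : Pt F → K := fun v => ι (w.1.1 * v.1.1 + w.1.2 * v.1.2) ^ lam a

/-- The module of a label. -/
def W : Submodule K (Pt F → K) := Submodule.span K (Set.range (gen ι a))

/-- A linear form over `K`. -/
def lin (l : K × K) (v : Pt F) : K := ι v.1.1 * l.1 + ι v.1.2 * l.2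

/-- A monomial in two linear forms. -/
def mono (l m : K × K) (k : Idx a) : Pt F → K := fun v => lin ι l v ^ eExp k * lin ι m v ^ dExp k

variable {ι a} [CharP K 3]

theorem W_le_span {l m : K × K} (hlm : l.1 * m.2 - l.2 * m.1 ≠ 0) :
    W ι a ≤ Submodule.span K (Set.range (mono ι a l m)) := by
  rw [W, Submodule.span_le]
  rintro _ ⟨w, rfl⟩
  set D := l.1 * m.2 - l.2 * m.1 with hD
  set r := (ι w.1.1 * m.2 - ι w.1.2 * m.1) / D with hr
  set s := (ι w.1.2 * l.1 - ι w.1.1 * l.2) / D with hs
  have h1 : r * l.1 + s * m.1 = ι w.1.1 := by rw [hr, hs]; field_simp; rw [hD]; ring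
  have h2 : r * l.2 + s * m.2 = ι w.1.2 := by rw [hr, hs]; field_simp; rw [hD]; ring
  have e : gen ι a w = ∑ k : Idx a, (coef K k * (r ^ eExp k * s ^ dExp k)) • mono ι a l m k := by
    funext v
    have hv : ι (w.1.1 * v.1.1 + w.1.2 * v.1.2) = r * lin ι l v + s * lin ι m v := by
      rw [map_add, map_mul, map_mul, ← h1, ← h2, lin, lin]
      ring
    rw [gen, hv, add_pow_lam a, Finset.sum_apply]
    refine Finset.sum_congr rfl fun k _ => ?_
    rw [Pi.smul_apply, smul_eq_mul, mono, mul_pow, mul_pow]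
    ring
  rw [e, SetLike.mem_coe]
  exact Submodule.sum_mem _ fun k _ => Submodule.smul_mem _ _
    (Submodule.subset_span ⟨k, rfl⟩)

variable [Fintype F] (hq : Fintype.card F = 3 ^ n)
include hq

theorem mono_std_indep : LinearIndependent K (mono ι a (1, 0) (0, 1)) := by
  rw [Fintype.linearIndependent_iff]
  intro c hc
  refine congrFun (sum_pow_eq_zero ι (eExp_inj a) (fun k => hq ▸ eExp_lt k) fun t => ?_)
  have := congrFun hc ⟨(t, 1), fun h => one_ne_zero (congrArg Prod.snd h)⟩
  simpa [mono, lin, Finset.sum_apply] using this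

theorem mono_std_mem (k : Idx a) : mono ι a (1, 0) (0, 1) k ∈ W ι a := by
  by_contra hk
  obtain ⟨ψ, hψ, hW⟩ := Submodule.exists_dual_map_eq_bot_of_notMem hk inferInstance
  have hgen : ∀ w, ψ (gen ι a w) = 0 := fun w => by
    have : ψ (gen ι a w) ∈ (W ι a).map ψ :=
      Submodule.mem_map_of_mem (Submodule.subset_span ⟨w, rfl⟩)
    rwa [hW, Submodule.mem_bot] at this
  have hz := sum_pow_eq_zero ι (dExp_inj a) (fun k => hq ▸ dExp_lt k)
    (c := fun k => coef K k * ψ (mono ι a (1, 0) (0, 1) k)) fun t => ?_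
  · exact hψ ((mul_eq_zero.mp (congrFun hz k)).resolve_left (coef_ne_zero k))
  · have e : gen ι a ⟨((1 : F), t), fun h => one_ne_zero (congrArg Prod.fst h)⟩ =
        ∑ k : Idx a, (coef K k * ι t ^ dExp k) • mono ι a (1, 0) (0, 1) k := by
      funext v
      rw [gen, one_mul, map_add, map_mul, add_pow_lam a, Finset.sum_apply]
      refine Finset.sum_congr rfl fun k _ => ?_
      rw [Pi.smul_apply, smul_eq_mul, mono, lin, lin, mul_pow]
      simp only [mul_one, mul_zero, add_zero, zero_add]
      ring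
    have h0 := hgen ⟨((1 : F), t), fun h => one_ne_zero (congrArg Prod.fst h)⟩
    rw [e, map_sum] at h0
    refine Eq.trans (Finset.sum_congr rfl fun k _ => ?_) h0
    rw [map_smul, smul_eq_mul]
    ring

theorem finrank_W : finrank K ↥(W ι a) = wdim a := by
  refine le_antisymm ?_ ?_
  · rw [← card_idx a]
    exact (Submodule.finrank_mono (W_le_span (l := ((1 : K), (0 : K))) (m := (0, 1)) (by simp))).trans
      (finrank_range_le_card _)
  · rw [← card_idx a, ← finrank_span_eq_card (mono_std_indep hq (ι := ι) (a := a))]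
    exact Submodule.finrank_mono (Submodule.span_le.mpr (by rintro _ ⟨k, rfl⟩; exact mono_std_mem hq k))

theorem W_eq_span {l m : K × K} (hlm : l.1 * m.2 - l.2 * m.1 ≠ 0) :
    W ι a = Submodule.span K (Set.range (mono ι a l m)) := by
  refine Submodule.eq_of_le_of_finrank_le (W_le_span hlm) ?_
  rw [finrank_W hq, ← card_idx a]
  exact finrank_range_le_card _

theorem mono_indep {l m : K × K} (hlm : l.1 * m.2 - l.2 * m.1 ≠ 0) :
    LinearIndependent K (mono ι a l m) := by
  rw [linearIndependent_iff_card_eq_finrank_span, card_idx, Set.finrank, ← W_eq_span hq hlm,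
    finrank_W hq]

omit hq in
theorem act_gen (g : SL(2, F)) (w : Pt F) :
    ∃ w', act K g (gen ι a w) = gen ι a w' := by
  refine ⟨⟨(w.1.1 * g 0 0 + w.1.2 * g 0 1, w.1.1 * g 1 0 + w.1.2 * g 1 1), fun h => ?_⟩, ?_⟩
  · have hdet : g 0 0 * g 1 1 - g 0 1 * g 1 0 = 1 := by
      rw [← Matrix.det_fin_two (g : Matrix (Fin 2) (Fin 2) F)]; exact g.2
    rw [Prod.mk_eq_zero] at h
    refine w.2 (Prod.ext ?_ ?_)
    · show w.1.1 = 0
      linear_combination (g 1 1) * h.1 - (g 0 1) * h.2 - w.1.1 * hdet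
    · show w.1.2 = 0
      linear_combination (g 0 0) * h.2 - (g 1 0) * h.1 - w.1.2 * hdet
  · funext v
    simp only [act_apply, gen, pmul, vmul]
    congr 2
    ring

omit hq in
theorem act_mem_W (g : SL(2, F)) {f : Pt F → K} (hf : f ∈ W ι a) : act K g f ∈ W ι a := by
  refine (show W ι a ≤ (W ι a).comap (act K g) from ?_) hf
  rw [W, Submodule.span_le]
  rintro _ ⟨w, rfl⟩
  obtain ⟨w', e⟩ := act_gen (ι := ι) (a := a) g w
  exact Submodule.mem_comap.mpr (e ▸ Submodule.subset_span ⟨w', rfl⟩)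

end CfsgLib.SLTwoDef56
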