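import Cfsg.Agent.SLTwoDef56.Simple

/-!
The multiplicities of the composition factors and their invariance under field automorphisms.
-/

set_option autoImplicit false
set_option linter.unusedSectionVars false

namespace CfsgLib.SLTwoDef56

open Module
open scoped MatrixGroups

variable {F : Type*} [Field F] [Fintype F] {K : Type*} [Field K] [CharP K 3] {n : ℕ}
variable (ι : F →+* K) (hq : Fintype.card F = 3 ^ n)
variable {V : Type*} [AddCommGroup V] [Module K V] [FiniteDimensional K V]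
variable (ρ : SL(2, F) →* Module.End K V)

theorem isHom_of_mem {a : Fin n → Fin 3} {f : Pt F → K} (hf : f ∈ W ι a) :
    IsHom ι (lam a) f := by
  induction hf using Submodule.span_induction with
  | mem x hx =>
    obtain ⟨w, rfl⟩ := hx
    intro c v v' hv
    rw [gen, gen, hv, ← mul_pow, ← map_mul]
    congr 2
    ring
  | zero => intro c v w _; simp
  | add x y _ _ hx hy =>
    intro c v w hw
    rw [Pi.add_apply, Pi.add_apply, hx c v w hw, hy c v w hw, mul_add]
  | smul r x _ hx =>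
    intro c v w hw
    rw [Pi.smul_apply, Pi.smul_apply, hx c v w hw, smul_eq_mul, smul_eq_mul]
    ring

theorem act_uMat_gen_e1 (a : Fin n → Fin 3) (b : F) :
    act K (uMat b) (gen ι a e1) = gen ι a e1 := by
  funext v
  rw [act_apply, gen_e1, gen_e1]
  simp [pmul, vmul_uMat]

include hq in
theorem lab_finrank {a : Fin n → Fin 3} {A B : Submodule K V} (h : Lab ι a ρ A B) :
    finrank K ↥B = finrank K ↥A + wdim a := by
  obtain ⟨hle, L, hker, -, hmap⟩ := h
  have h1 := (L.comp B.subtype).finrank_range_add_finrank_ker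
  have h2 : LinearMap.range (L.comp B.subtype) = W ι a := by
    rw [LinearMap.range_comp, Submodule.range_subtype, hmap]
  have h3 : LinearMap.ker (L.comp B.subtype) = A.comap B.subtype := by
    ext x
    simp [hker _ x.2]
  rw [h2, h3, finrank_W hq, (Submodule.comapSubtypeEquivOfLe hle).finrank_eq] at h1
  omega

theorem act_sub_mem {a : Fin n → Fin 3} {A B : Submodule K V} (hB : Inv ρ B)
    (h : Lab ι a ρ A B) {y : V} (hy : y ∈ B) {g : SL(2, F)} (c : K)
    (hg : ∀ L : V →ₗ[K] (Pt F → K), (∀ x ∈ B, (L x = 0 ↔ x ∈ A)) →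
      (∀ g, ∀ x ∈ B, L (ρ g x) = act K g (L x)) → B.map L = W ι a →
      act K g (L y) = c • L y) : ρ g y - c • y ∈ A := by
  obtain ⟨-, L, hker, heq, hmap⟩ := h
  rw [← hker _ (B.sub_mem (hB g y hy) (B.smul_mem c hy)), map_sub, map_smul, heq g y hy,
    hg L hker heq hmap, sub_self]

include hq in
theorem lab_unique_pos {a b : Fin n → Fin 3} {A B : Submodule K V} (hcov : Cov ρ A B)
    (ha : Lab ι a ρ A B) (hb : Lab ι b ρ A B) (ha0 : 0 < lam a)
    (ha1 : lam a < Fintype.card F - 1) (hb0 : 0 < lam b) (hb1 : lam b < Fintype.card F - 1) :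
    a = b := by
  classical
  obtain ⟨hA, hB, -, -⟩ := hcov
  obtain ⟨-, L, hker, heq, hmap⟩ := ha
  obtain ⟨-, L', hker', heq', hmap'⟩ := hb
  obtain ⟨y, hy, hLy⟩ : gen ι a e1 ∈ B.map L := by
    rw [hmap]; exact Submodule.subset_span ⟨e1, rfl⟩
  have hfix : ∀ c, act K (uMat c) (L' y) = L' y := fun c => by
    have h1 : ρ (uMat c) y - y ∈ A := by
      rw [← hker _ (B.sub_mem (hB _ y hy) hy), map_sub, heq _ y hy, hLy, act_uMat_gen_e1, sub_self]
    have := (hker' _ (B.sub_mem (hB _ y hy) hy)).mpr h1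
    rwa [map_sub, heq' _ y hy, sub_eq_zero] at this
  obtain ⟨cA, cB, hAB⟩ := fixed_form ι
    (isHom_of_mem ι (hmap' ▸ Submodule.mem_map_of_mem hy : L' y ∈ W ι b)) hfix
  set z := ∑ c : F, ρ (uMat c * wMat) y with hz
  have hzB : z ∈ B := B.sum_mem fun c _ => hB _ y hy
  have hLz : L z = phi K (L y) := by
    rw [hz, map_sum, phi]; exact Finset.sum_congr rfl fun c _ => heq _ y hy
  have hLz' : L' z = phi K (L' y) := by
    rw [hz, map_sum, phi]; exact Finset.sum_congr rfl fun c _ => heq' _ y hy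
  rw [hLy, gen_e1_pos ι a ha0, phi_f2 ι ha0 ha1, hker z hzB] at hLz
  rw [(hker' z hzB).mpr hLz, hAB, phi_smul_add, phi_f2 ι hb0 hb1, phi_f1, smul_zero,
    zero_add] at hLz'
  have hcB : cB = 0 := by
    have := congrFun hLz' e1
    simpa [f2, e1] using this.symm
  rw [hcB, zero_smul, add_zero] at hAB
  have hyA : y ∉ A := fun h => by
    rw [(hker y hy).mpr h] at hLy
    have := congrFun hLy e1
    rw [gen_e1] at this
    simp [e1] at this
  have hcA : cA ≠ 0 := fun h => hyA ((hker' y hy).mp (by rw [hAB, h, zero_smul]))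
  obtain ⟨γ, hγ⟩ := IsCyclic.exists_generator (α := Fˣ)
  have hact : ∀ l, act K (tMat γ) (f2 ι l) = ι (γ : F) ^ l • f2 ι l := fun l => by
    funext v
    rw [Pi.smul_apply, smul_eq_mul, act_apply, f2, f2]
    simp only [pmul, vmul_tMat, mul_eq_zero, Units.ne_zero, or_false]
    split_ifs <;> simp [mul_pow, mul_comm]
  have h2 : ρ (tMat γ) y - ι (γ : F) ^ lam a • y ∈ A := by
    rw [← hker _ (B.sub_mem (hB _ y hy) (B.smul_mem _ hy)), map_sub, map_smul, heq _ y hy, hLy,
      gen_e1_pos ι a ha0, hact, sub_self]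
  have h3 := (hker' _ (B.sub_mem (hB _ y hy) (B.smul_mem _ hy))).mpr h2
  rw [map_sub, map_smul, heq' _ y hy, hAB, map_smul, hact, smul_smul, smul_smul, ← sub_smul] at h3
  have h4 : ι (γ : F) ^ lam b = ι (γ : F) ^ lam a := by
    rcases smul_eq_zero.mp h3 with h3 | h3
    · rw [mul_comm _ cA, ← mul_sub] at h3
      exact sub_eq_zero.mp ((mul_eq_zero.mp h3).resolve_left hcA)
    · have := congrFun h3 e1
      simp [f2, e1] at this
  have hord : orderOf γ = Fintype.card F - 1 := by
    rw [orderOf_eq_card_of_forall_mem_zpowers hγ, Nat.card_eq_fintype_card, Fintype.card_units]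
  refine lam_inj (pow_injOn_Iio_orderOf (x := γ) (hord ▸ ha1) (hord ▸ hb1) ?_)
  exact Units.ext (ι.injective (by simpa using h4.symm))

theorem wdim_eq_one {a : Fin n → Fin 3} (h : wdim a = 1) : a = fun _ => 0 := by
  funext i
  have h1 : ((a i : ℕ) + 1) ∣ wdim a := Finset.dvd_prod_of_mem _ (Finset.mem_univ i)
  rw [h, Nat.dvd_one] at h1
  exact Fin.ext (by simpa using h1)

theorem wdim_eq_top {a : Fin n → Fin 3} (h : wdim a = 3 ^ n) : a = fun _ => 2 := by
  funext i
  by_contra hne
  have h2 := (a i).isLt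
  have h3 : (a i : ℕ) ≠ 2 := fun h => hne (Fin.ext h)
  have : wdim a < ∏ _j : Fin n, 3 :=
    Finset.prod_lt_prod (fun j _ => Nat.succ_pos _) (fun j _ => by have := (a j).isLt; omega)
      ⟨i, Finset.mem_univ i, by omega⟩
  simp [h] at this

theorem lam_zero_iff {a : Fin n → Fin 3} : lam a = 0 ↔ a = fun _ => 0 := by
  constructor
  · intro h
    exact lam_inj (h.trans (by simp [lam]))
  · rintro rfl; simp [lam]

theorem lam_top : lam (fun _ : Fin n => (2 : Fin 3)) + 1 = 3 ^ n := by
  induction n with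
  | zero => simp [lam]
  | succ m ih =>
    simp only [lam] at ih ⊢
    rw [Fin.sum_univ_castSucc]
    simp only [Fin.val_castSucc, Fin.val_last]
    rw [pow_succ]
    show _ + (2 : ℕ) * 3 ^ m + 1 = _
    omega

include hq in
theorem lab_unique {a b : Fin n → Fin 3} {A B : Submodule K V} (hcov : Cov ρ A B)
    (ha : Lab ι a ρ A B) (hb : Lab ι b ρ A B) : a = b := by
  have hdim : wdim a = wdim b := by
    have := lab_finrank ι hq ρ ha
    have := lab_finrank ι hq ρ hb
    omega
  have h1 := lam_lt a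
  have h2 := lam_lt b
  have ht := lam_top (n := n)
  have ext0 : ∀ c : Fin n → Fin 3, lam c = 0 → wdim c = 1 := fun c hc => by
    rw [lam_zero_iff.mp hc]; simp [wdim]
  have ext1 : ∀ c : Fin n → Fin 3, lam c + 1 = 3 ^ n → wdim c = 3 ^ n := fun c hc => by
    rw [lam_inj (show lam c = lam (fun _ : Fin n => (2 : Fin 3)) by omega)]; simp [wdim]
  by_cases a0 : lam a = 0
  · rw [lam_zero_iff.mp a0, wdim_eq_one (hdim.symm.trans (ext0 a a0))]
  by_cases b0 : lam b = 0
  · exact absurd (lam_zero_iff.mpr (wdim_eq_one (hdim.trans (ext0 b b0)))) a0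
  by_cases a1 : lam a + 1 = 3 ^ n
  · rw [wdim_eq_top (hdim.symm.trans (ext1 a a1)), wdim_eq_top (ext1 a a1)]
  by_cases b1 : lam b + 1 = 3 ^ n
  · rw [wdim_eq_top (ext1 b b1), wdim_eq_top (hdim.trans (ext1 b b1))]
  exact lab_unique_pos ι hq ρ hcov ha hb (by omega) (by omega) (by omega) (by omega)

/-- A chain from `A` to the top with the given labels. -/
inductive HasL : Submodule K V → Multiset (Fin n → Fin 3) → Prop
  | top : HasL ⊤ 0
  | step {A B : Submodule K V} {M : Multiset (Fin n → Fin 3)} {a : Fin n → Fin 3} :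
      Cov ρ A B → Lab ι a ρ A B → HasL B M → HasL A (a ::ₘ M)

theorem exists_cov {A : Submodule K V} (hA : Inv ρ A) (h : A ≠ ⊤) : ∃ B, Cov ρ A B := by
  obtain ⟨B, ⟨hB, hlt⟩, hmin⟩ := (wellFounded_lt (α := Submodule K V)).has_min
    {X | Inv ρ X ∧ A < X} ⟨⊤, fun _ _ _ => Submodule.mem_top, lt_top_iff_ne_top.mpr h⟩
  refine ⟨B, hA, hB, hlt, fun X hX h1 h2 => ?_⟩
  by_contra hne
  rw [not_or] at hne
  exact hmin X ⟨hX, lt_of_le_of_ne h1 (Ne.symm hne.1)⟩ (lt_of_le_of_ne h2 hne.2)

include hq in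
theorem exists_hasL [IsAlgClosed K] {A : Submodule K V} (hA : Inv ρ A) :
    ∃ M : Multiset (Fin n → Fin 3), HasL ι ρ A M := by
  induction A using (wellFounded_gt (α := Submodule K V)).induction with
  | _ A ih =>
    by_cases h : A = ⊤
    · exact ⟨0, h ▸ HasL.top⟩
    · obtain ⟨B, hB⟩ := exists_cov ρ hA h
      obtain ⟨a, ha⟩ := exists_lab ι ρ hq hB
      obtain ⟨M, hM⟩ := ih B hB.2.2.1 hB.2.1
      exact ⟨_, HasL.step hB ha hM⟩

theorem diamond {A B B' : Submodule K V} (h : Cov ρ A B) (h' : Cov ρ A B') (hne : B ≠ B') :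
    Cov ρ B (B ⊔ B') ∧ ∀ b : Fin n → Fin 3, Lab ι b ρ A B' → Lab ι b ρ B (B ⊔ B') := by
  obtain ⟨hA, hB, hlt, hmax⟩ := h
  obtain ⟨-, hB', hlt', hmax'⟩ := h'
  have hinf : B ⊓ B' = A := by
    rcases hmax (B ⊓ B') (fun g x hx => ⟨hB g x hx.1, hB' g x hx.2⟩) (le_inf hlt.le hlt'.le)
      inf_le_left with h | h
    · exact h
    · rcases hmax' B hB hlt.le (inf_eq_left.mp h) with h1 | h1
      · exact absurd h1 hlt.ne'
      · exact absurd h1 hne
  have hC : Inv ρ (B ⊔ B') := fun g x hx => by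
    obtain ⟨u, hu, v, hv, rfl⟩ := Submodule.mem_sup.mp hx
    rw [map_add]
    exact Submodule.add_mem_sup (hB g u hu) (hB' g v hv)
  refine ⟨⟨hB, hC, lt_of_le_of_ne le_sup_left fun e => ?_, fun X hX h1 h2 => ?_⟩, ?_⟩
  · have h3 : B' ≤ B := e ▸ le_sup_right
    rw [inf_eq_right.mpr h3] at hinf
    exact hlt'.ne' hinf
  · rcases hmax' (B' ⊓ X) (fun g x hx => ⟨hB' g x hx.1, hX g x hx.2⟩)
      (le_inf hlt'.le (hlt.le.trans h1)) inf_le_left with h | h
    · left
      have := sup_inf_assoc_of_le B' h1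
      rw [inf_eq_right.mpr h2, h, sup_eq_left.mpr hlt.le] at this
      exact this
    · right
      exact le_antisymm h2 (sup_le h1 (inf_eq_left.mp h))
  · rintro b ⟨-, L, hker, heq, hmap⟩
    set q := B.mkQ.comp B'.subtype with hqdef
    have hqk : LinearMap.ker q ≤ LinearMap.ker (L.comp B'.subtype) := fun x hx => by
      rw [LinearMap.mem_ker] at hx ⊢
      have hxB : (x : V) ∈ B := (Submodule.Quotient.mk_eq_zero B).mp hx
      exact (hker _ x.2).mpr (hinf ▸ ⟨hxB, x.2⟩)
    obtain ⟨G, hG⟩ := LinearMap.exists_extend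
      (((LinearMap.ker q).liftQ _ hqk).comp q.quotKerEquivRange.symm.toLinearMap)
    have key : ∀ x ∈ B', G (B.mkQ x) = L x := fun x hx => by
      have := congrArg (fun f => f (⟨q ⟨x, hx⟩, LinearMap.mem_range_self q ⟨x, hx⟩⟩ : ↥(LinearMap.range q))) hG
      simp only [LinearMap.comp_apply, LinearEquiv.coe_toLinearMap] at this
      rw [LinearMap.quotKerEquivRange_symm_apply_image q ⟨x, hx⟩ _] at this
      exact this
    refine ⟨le_sup_left, G.comp B.mkQ, fun x hx => ?_, fun g x hx => ?_, ?_⟩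
    · obtain ⟨u, hu, v, hv, rfl⟩ := Submodule.mem_sup.mp hx
      have e : B.mkQ (u + v) = B.mkQ v := by
        rw [map_add, B.mkQ_apply u, (Submodule.Quotient.mk_eq_zero B).mpr hu, zero_add]
      rw [LinearMap.comp_apply, e, key v hv, hker v hv]
      constructor
      · exact fun h => B.add_mem hu (hlt.le h)
      · intro h
        rw [← hinf]
        exact ⟨by simpa using B.sub_mem h hu, hv⟩
    · obtain ⟨u, hu, v, hv, rfl⟩ := Submodule.mem_sup.mp hx
      rw [LinearMap.comp_apply, LinearMap.comp_apply, map_add, map_add, map_add, map_add, map_add,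
        B.mkQ_apply u, (Submodule.Quotient.mk_eq_zero B).mpr hu, B.mkQ_apply (ρ g u),
        (Submodule.Quotient.mk_eq_zero B).mpr (hB g u hu), map_zero, zero_add, zero_add,
        key _ (hB' g v hv), key v hv, heq g v hv]
    · rw [Submodule.map_sup, ← hmap]
      refine (sup_eq_right.mpr ?_).trans ?_
      · rintro _ ⟨u, hu, rfl⟩
        rw [LinearMap.comp_apply, B.mkQ_apply, (Submodule.Quotient.mk_eq_zero B).mpr hu, map_zero]
        exact zero_mem _
      · ext f
        constructor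
        · rintro ⟨x, hx, rfl⟩; exact ⟨x, hx, (key x hx).symm⟩
        · rintro ⟨x, hx, rfl⟩; exact ⟨x, hx, key x hx⟩

include hq in
theorem hasL_unique [IsAlgClosed K] {A : Submodule K V} :
    ∀ {M M' : Multiset (Fin n → Fin 3)}, HasL ι ρ A M → HasL ι ρ A M' → M = M' := by
  induction A using (wellFounded_gt (α := Submodule K V)).induction with
  | _ A ih =>
    intro M M' h h'
    rcases h with _ | ⟨hc, hl, hM⟩
    · rcases h' with _ | ⟨hc', -, -⟩
      · rfl
      · exact absurd hc'.2.2.1 not_top_lt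
    · rename_i B M a
      rcases h' with _ | ⟨hc', hl', hM'⟩
      · exact absurd hc.2.2.1 not_top_lt
      · rename_i B' M' b
        by_cases hBB : B = B'
        · subst hBB
          rw [lab_unique ι hq ρ hc hl hl', ih B hc.2.2.1 hM hM']
        · obtain ⟨c1, l1⟩ := diamond ι ρ hc hc' hBB
          obtain ⟨c2, l2⟩ := diamond ι ρ hc' hc (Ne.symm hBB)
          rw [sup_comm] at c2 l2
          obtain ⟨N, hN⟩ := exists_hasL ι hq ρ c1.2.1
          rw [ih B hc.2.2.1 hM (HasL.step c1 (l1 b hl') hN),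
            ih B' hc'.2.2.1 hM' (HasL.step c2 (l2 a hl) hN)]
          exact Multiset.cons_swap _ _ _

end CfsgLib.SLTwoDef56
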