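import Cfsg.Agent.SLTwoDef56.Labels

/-!
Eigenspace dimensions of semisimple elements of `SL(2, 3 ^ n)` in a representation over the field of three elements.
-/

set_option autoImplicit false
set_option linter.unusedSectionVars false

namespace CfsgLib.SLTwoDef56

open Module
open scoped MatrixGroups

variable {F : Type*} [Field F] [Fintype F] {K : Type*} [Field K] [CharP K 3] {n : ℕ}
variable (ι : F →+* K) (hq : Fintype.card F = 3 ^ n)

/-- Eigen data of an element. -/
def EigData (g : SL(2, F)) (μ : K) (l : K × K) : Prop :=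
  ι (g 0 0) * l.1 + ι (g 0 1) * l.2 = μ * l.1 ∧ ι (g 1 0) * l.1 + ι (g 1 1) * l.2 = μ * l.2

theorem lin_pmul {g : SL(2, F)} {μ : K} {l : K × K} (h : EigData ι g μ l) (v : Pt F) :
    lin ι l (pmul v g) = μ * lin ι l v := by
  simp only [lin, pmul, vmul, map_add, map_mul]
  linear_combination ι v.1.1 * h.1 + ι v.1.2 * h.2

/-- The eigenvalue of a monomial. -/
def eigVal {a : Fin n → Fin 3} (μ : K) (k : Idx a) : K := μ ^ eExp k * μ⁻¹ ^ dExp k

open scoped Classical in
/-- The number of monomials with a given eigenvalue. -/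
noncomputable def eigCount (μ : K) (a : Fin n → Fin 3) (ν : K) : ℕ :=
  (Finset.univ.filter fun k : Idx a => eigVal μ k = ν).card

include hq in
theorem finrank_W_eigen {a : Fin n → Fin 3} {g : SL(2, F)} {μ : K} {l m : K × K}
    (hl : EigData ι g μ l) (hm : EigData ι g μ⁻¹ m) (hlm : l.1 * m.2 - l.2 * m.1 ≠ 0) (ν : K) :
    finrank K ↥(W ι a ⊓ Module.End.eigenspace (act K g) ν) = eigCount μ a ν := by
  classical
  set E := mono ι a l m with hE
  have hact : ∀ k, act K g (E k) = eigVal μ k • E k := fun k => by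
    funext v
    rw [act_apply, Pi.smul_apply, smul_eq_mul, hE, mono, mono, lin_pmul ι hl, lin_pmul ι hm,
      eigVal, mul_pow, mul_pow]
    ring
  set S := Finset.univ.filter fun k : Idx a => eigVal μ k = ν with hS
  have hspan : W ι a ⊓ Module.End.eigenspace (act K g) ν =
      Submodule.span K (Set.range fun k : ↥S => E k) := by
    apply le_antisymm
    · rintro f ⟨hf, hfe⟩
      rw [SetLike.mem_coe, W_eq_span hq hlm, ← hE, Submodule.mem_span_range_iff_exists_fun] at hf
      obtain ⟨c, rfl⟩ := hf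
      rw [SetLike.mem_coe, Module.End.mem_eigenspace_iff, map_sum, Finset.smul_sum, ← sub_eq_zero,
        ← Finset.sum_sub_distrib] at hfe
      have h0 := Fintype.linearIndependent_iff.mp (mono_indep hq hlm (a := a) (ι := ι))
        (fun k => c k * (eigVal μ k - ν)) (by
          rw [← hfe]
          refine Finset.sum_congr rfl fun k _ => ?_
          rw [map_smul, hact, smul_smul, smul_smul, ← sub_smul, hE, mul_sub, mul_comm ν])
      refine Submodule.sum_mem _ fun k _ => ?_
      by_cases hk : eigVal μ k = ν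
      · exact Submodule.smul_mem _ _ (Submodule.subset_span ⟨⟨k, by simp [hS, hk]⟩, rfl⟩)
      · rw [(mul_eq_zero.mp (h0 k)).resolve_right (sub_ne_zero.mpr hk), zero_smul]
        exact zero_mem _
    · rw [Submodule.span_le]
      rintro _ ⟨⟨k, hk⟩, rfl⟩
      refine ⟨?_, ?_⟩
      · rw [SetLike.mem_coe, W_eq_span hq hlm]
        exact Submodule.subset_span ⟨k, rfl⟩
      · rw [SetLike.mem_coe, Module.End.mem_eigenspace_iff, hact]
        simp only [hS, Finset.mem_filter, Finset.mem_univ, true_and] at hk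
        rw [hk]
  rw [hspan]
  refine (finrank_span_eq_card ((mono_indep hq hlm (a := a) (ι := ι)).comp _
    Subtype.val_injective)).trans ?_
  rw [Fintype.card_coe, eigCount]

variable {V : Type*} [AddCommGroup V] [Module K V] [FiniteDimensional K V]
variable (ρ : SL(2, F) →* Module.End K V)

theorem eig_step {a : Fin n → Fin 3} {A B : Submodule K V} (hcov : Cov ρ A B)
    (h : Lab ι a ρ A B) {g : SL(2, F)} {N : ℕ} (hN : g ^ N = 1) (hN0 : (N : K) ≠ 0) (ν : K) :
    finrank K ↥(B ⊓ Module.End.eigenspace (ρ g) ν) =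
      finrank K ↥(A ⊓ Module.End.eigenspace (ρ g) ν) +
        finrank K ↥(W ι a ⊓ Module.End.eigenspace (act K g) ν) := by
  classical
  obtain ⟨-, hB, -, -⟩ := hcov
  obtain ⟨hle, L, hker, heq, hmap⟩ := h
  set E := B ⊓ Module.End.eigenspace (ρ g) ν with hE
  have h1 := (L.comp E.subtype).finrank_range_add_finrank_ker
  have h3 : LinearMap.ker (L.comp E.subtype) =
      (A ⊓ Module.End.eigenspace (ρ g) ν).comap E.subtype := by
    ext x
    have hx : (x : V) ∈ B ∧ (x : V) ∈ Module.End.eigenspace (ρ g) ν := x.2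
    simp [hker _ hx.1, hx.2]
  have h2 : LinearMap.range (L.comp E.subtype) =
      W ι a ⊓ Module.End.eigenspace (act K g) ν := by
    rw [LinearMap.range_comp, Submodule.range_subtype]
    apply le_antisymm
    · rintro _ ⟨x, ⟨hx, hxe⟩, rfl⟩
      refine ⟨hmap ▸ Submodule.mem_map_of_mem hx, ?_⟩
      rw [SetLike.mem_coe, Module.End.mem_eigenspace_iff] at hxe ⊢
      rw [← heq g x hx, hxe, map_smul]
    · rintro w ⟨hw, hwe⟩
      rw [SetLike.mem_coe, Module.End.mem_eigenspace_iff] at hwe
      rcases eq_or_ne w 0 with rfl | hw0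
      · exact zero_mem _
      rw [SetLike.mem_coe, ← hmap] at hw
      obtain ⟨y, hy, rfl⟩ := hw
      have hpow : ∀ j, act K (g ^ j) (L y) = ν ^ j • L y := by
        intro j
        induction j with
        | zero => rw [pow_zero, act_one, pow_zero, one_smul]
        | succ j ih => rw [pow_succ, act_mul, hwe, map_smul, ih, smul_smul, pow_succ']
      have hνN : ν ^ N = 1 := by
        have h4 := hpow N
        rw [hN, act_one] at h4
        have h5 : ((1 : K) - ν ^ N) • L y = 0 := by rw [sub_smul, one_smul, ← h4, sub_self]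
        exact (sub_eq_zero.mp ((smul_eq_zero.mp h5).resolve_right hw0)).symm
      have hν0 : ν ≠ 0 := fun h => by
        rw [h, zero_pow (fun e => hN0 (by rw [e, Nat.cast_zero]))] at hνN
        exact zero_ne_one hνN
      set t : ℕ → V := fun j => ν⁻¹ ^ j • ρ (g ^ j) y with ht
      set y' : V := (N : K)⁻¹ • ∑ j ∈ Finset.range N, t j with hy'
      have hy'B : y' ∈ B :=
        B.smul_mem _ (B.sum_mem fun j _ => B.smul_mem _ (hB _ y hy))
      refine ⟨y', ⟨hy'B, ?_⟩, ?_⟩
      · have hstep : ∀ j, ρ g (t j) = ν • t (j + 1) := fun j => by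
          rw [ht, map_smul, ← Module.End.mul_apply, ← map_mul, ← pow_succ', smul_smul,
            pow_succ' ν⁻¹, ← mul_assoc, mul_inv_cancel₀ hν0, one_mul]
        have hsum : ∑ j ∈ Finset.range N, t (j + 1) = ∑ j ∈ Finset.range N, t j := by
          have e := Finset.sum_range_succ t N
          rw [Finset.sum_range_succ'] at e
          have e0 : t N = t 0 := by
            simp only [ht, hN, inv_pow, hνN, inv_one, pow_zero, map_one, Module.End.one_apply]
          rw [e0] at e
          exact add_right_cancel e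
        rw [SetLike.mem_coe, Module.End.mem_eigenspace_iff, hy', map_smul, map_sum,
          Finset.sum_congr rfl fun j _ => hstep j, ← Finset.smul_sum, hsum, smul_comm]
      · rw [hy', map_smul, map_sum, Finset.sum_congr rfl fun j _ => ?_, Finset.sum_const,
          Finset.card_range, ← Nat.cast_smul_eq_nsmul K, smul_smul, inv_mul_cancel₀ hN0, one_smul]
        rw [ht, map_smul, heq _ y hy, hpow, smul_smul, ← mul_pow, inv_mul_cancel₀ hν0, one_pow,
          one_smul]
  rw [h2, h3, (Submodule.comapSubtypeEquivOfLe (inf_le_inf_right _ hle)).finrank_eq] at h1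
  omega

theorem eig_sum {A : Submodule K V} {M : Multiset (Fin n → Fin 3)} (h : HasL ι ρ A M)
    {g : SL(2, F)} {N : ℕ} (hN : g ^ N = 1) (hN0 : (N : K) ≠ 0) (ν : K) :
    finrank K ↥(Module.End.eigenspace (ρ g) ν) =
      finrank K ↥(A ⊓ Module.End.eigenspace (ρ g) ν) +
        (M.map fun a => finrank K ↥(W ι a ⊓ Module.End.eigenspace (act K g) ν)).sum := by
  induction h with
  | top => rw [top_inf_eq, Multiset.map_zero, Multiset.sum_zero, add_zero]
  | step hc hl _ ih =>
    rw [ih, eig_step ι ρ hc hl hN hN0 ν, Multiset.map_cons, Multiset.sum_cons]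
    ring

include hq in
theorem dim_sum {A : Submodule K V} {M : Multiset (Fin n → Fin 3)} (h : HasL ι ρ A M) :
    finrank K V = finrank K ↥A + (M.map wdim).sum := by
  induction h with
  | top => simp
  | step hc hl _ ih =>
    rw [ih, lab_finrank ι hq ρ hl, Multiset.map_cons, Multiset.sum_cons]
    ring

theorem even_of_lab {a : Fin n → Fin 3} {A B : Submodule K V} (h : Lab ι a ρ A B)
    (hneg : ∀ x, ρ (-1) x = x) : Even (lam a) := by
  obtain ⟨-, L, -, heq, hmap⟩ := h
  obtain ⟨y, hy, hLy⟩ : gen ι a e1 ∈ B.map L := by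
    rw [hmap]; exact Submodule.subset_span ⟨e1, rfl⟩
  have h1 : act K (-1) (L y) = L y := by rw [← heq (-1) y hy, hneg]
  rw [hLy] at h1
  have h2 := congrFun h1 e1
  rw [act_apply, gen_e1, gen_e1] at h2
  simp [pmul, vmul, e1] at h2
  by_contra hev
  rw [(Nat.not_even_iff_odd.mp hev).neg_one_pow] at h2
  have h3 : ((2 : ℕ) : K) = 0 := by push_cast; linear_combination -h2
  rw [CharP.cast_eq_zero_iff K 3] at h3
  norm_num at h3

/-- The shift of a label. -/
def shift (a : Fin n → Fin 3) : Fin n → Fin 3 := fun i => a ((finRotate n).symm i)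

include hq in
theorem pow_shift (a : Fin n → Fin 3) (z : F) : z ^ lam (shift a) = (z ^ lam a) ^ 3 := by
  have hz : z ^ 3 ^ n = z := hq ▸ FiniteField.pow_card z
  rw [lam, lam, ← Finset.prod_pow_eq_pow_sum, ← Finset.prod_pow_eq_pow_sum, ← Finset.prod_pow,
    ← Equiv.prod_comp (finRotate n)]
  refine Finset.prod_congr rfl fun j _ => ?_
  rw [← pow_mul, shift, Equiv.symm_apply_apply]
  rcases n with _ | m
  · exact j.elim0
  rw [coe_finRotate]
  split_ifs with hj
  · rw [mul_comm _ (3 ^ 0), pow_mul, pow_zero, pow_one, mul_assoc, ← pow_succ,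
      show (j : ℕ) + 1 = m + 1 by rw [hj]; rfl, mul_comm, pow_mul, hz]
  · rw [mul_assoc, ← pow_succ]

/-- A bijective semilinear map commuting with the action. -/
structure Semi (φ : V → V) : Prop where
  add : ∀ x y, φ (x + y) = φ x + φ y
  smul : ∀ (c : K) x, φ (c • x) = c ^ 3 • φ x
  bij : Function.Bijective φ
  comm : ∀ g x, φ (ρ g x) = ρ g (φ x)

variable [IsAlgClosed K] {φ : V → V}

/-- The image of a subspace. -/
def Semi.img (hφ : Semi ρ φ) (A : Submodule K V) : Submodule K V where
  carrier := φ '' (A : Set V)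
  add_mem' := by
    rintro _ _ ⟨x, hx, rfl⟩ ⟨y, hy, rfl⟩
    exact ⟨x + y, A.add_mem hx hy, hφ.add x y⟩
  zero_mem' := ⟨0, A.zero_mem, by
    have := hφ.smul 0 0
    simpa using this⟩
  smul_mem' := by
    rintro c _ ⟨x, hx, rfl⟩
    obtain ⟨r, hr⟩ := IsAlgClosed.exists_pow_nat_eq c (show 0 < 3 by norm_num)
    exact ⟨r • x, A.smul_mem r hx, by rw [hφ.smul, hr]⟩

theorem Semi.mem_img (hφ : Semi ρ φ) {A : Submodule K V} {x : V} :
    φ x ∈ hφ.img ρ A ↔ x ∈ A :=
  ⟨fun ⟨y, hy, e⟩ => hφ.bij.1 e ▸ hy, fun h => ⟨x, h, rfl⟩⟩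

theorem Semi.img_le (hφ : Semi ρ φ) {A B : Submodule K V} :
    hφ.img ρ A ≤ hφ.img ρ B ↔ A ≤ B :=
  ⟨fun h x hx => (hφ.mem_img ρ).mp (h ((hφ.mem_img ρ).mpr hx)),
    fun h x ⟨y, hy, e⟩ => ⟨y, h hy, e⟩⟩

theorem Semi.img_inv (hφ : Semi ρ φ) {A : Submodule K V} (hA : Inv ρ A) :
    Inv ρ (hφ.img ρ A) := by
  rintro g _ ⟨x, hx, rfl⟩
  exact ⟨ρ g x, hA g x hx, hφ.comm g x⟩

theorem Semi.img_cov (hφ : Semi ρ φ) {A B : Submodule K V} (h : Cov ρ A B) :
    Cov ρ (hφ.img ρ A) (hφ.img ρ B) := by
  obtain ⟨hA, hB, hlt, hmax⟩ := h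
  refine ⟨hφ.img_inv ρ hA, hφ.img_inv ρ hB, ?_, fun X hX h1 h2 => ?_⟩
  · rw [lt_iff_le_not_ge, hφ.img_le, hφ.img_le, ← lt_iff_le_not_ge]
    exact hlt
  · let X₀ : Submodule K V :=
      { carrier := φ ⁻¹' (X : Set V)
        add_mem' := fun {x y} hx hy => show φ (x + y) ∈ X by rw [hφ.add]; exact X.add_mem hx hy
        zero_mem' := show φ 0 ∈ X by
          have := hφ.smul 0 0
          simp only [zero_smul, smul_zero, ne_eq, OfNat.ofNat_ne_zero, not_false_eq_true,
            zero_pow] at this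
          rw [this]
          exact X.zero_mem
        smul_mem' := fun c x hx => show φ (c • x) ∈ X by rw [hφ.smul]; exact X.smul_mem _ hx }
    have hX0 : hφ.img ρ X₀ = X := by
      apply le_antisymm
      · rintro _ ⟨x, hx, rfl⟩; exact hx
      · intro x hx
        obtain ⟨y, rfl⟩ := hφ.bij.2 x
        exact ⟨y, hx, rfl⟩
    rcases hmax X₀ (fun g x (hx : φ x ∈ X) => show φ (ρ g x) ∈ X by
        rw [hφ.comm]; exact hX g _ hx)
        (fun x hx => h1 ((hφ.mem_img ρ).mpr hx)) (fun x hx => (hφ.mem_img ρ).mp (h2 hx)) with h | h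
    · exact Or.inl (by rw [← hX0, h])
    · exact Or.inr (by rw [← hX0, h])

include hq in
theorem Semi.img_lab (hφ : Semi ρ φ) {a : Fin n → Fin 3} {A B : Submodule K V}
    (h : Lab ι a ρ A B) : Lab ι (shift a) ρ (hφ.img ρ A) (hφ.img ρ B) := by
  obtain ⟨hle, L, hker, heq, hmap⟩ := h
  let ψ := Function.surjInv hφ.bij.2
  have hψ : ∀ x, φ (ψ x) = x := fun x => Function.surjInv_eq hφ.bij.2 x
  have hψφ : ∀ x, ψ (φ x) = x := fun x => hφ.bij.1 (hψ _)
  let L' : V →ₗ[K] (Pt F → K) :=
    { toFun := fun x v => L (ψ x) v ^ 3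
      map_add' := fun x y => funext fun v => by
        have e : ψ (x + y) = ψ x + ψ y := hφ.bij.1 (by rw [hψ, hφ.add, hψ, hψ])
        haveI : Fact (Nat.Prime 3) := ⟨Nat.prime_three⟩
        simp only [Pi.add_apply, e, map_add]
        exact add_pow_char _ _ _
      map_smul' := fun c x => funext fun v => by
        obtain ⟨r, hr⟩ := IsAlgClosed.exists_pow_nat_eq c (show 0 < 3 by norm_num)
        have e : ψ (c • x) = r • ψ x := hφ.bij.1 (by rw [hψ, hφ.smul, hψ, hr])
        simp only [Pi.smul_apply, e, map_smul, smul_eq_mul, RingHom.id_apply, mul_pow, hr] }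
  have hL' : ∀ x v, L' (φ x) v = L x v ^ 3 := fun x v => by
    show L (ψ (φ x)) v ^ 3 = _
    rw [hψφ]
  have hgen : ∀ w v, gen ι (shift a) w v = gen ι a w v ^ 3 := fun w v => by
    rw [gen, gen, ← map_pow, ← map_pow, ← map_pow, pow_shift hq]
  refine ⟨(hφ.img_le ρ).mpr hle, L', ?_, ?_, ?_⟩
  · rintro _ ⟨x, hx, rfl⟩
    rw [hφ.mem_img, ← hker x hx]
    constructor
    · intro h
      funext v
      have := congrFun h v
      rw [hL'] at this
      simpa using this
    · intro h
      funext v
      rw [hL', h]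
      simp
  · rintro g _ ⟨x, hx, rfl⟩
    funext v
    rw [← hφ.comm, hL', act_apply, hL', heq g x hx, act_apply]
  · apply le_antisymm
    · rintro _ ⟨_, ⟨x, hx, rfl⟩, rfl⟩
      have hLx : L x ∈ W ι a := hmap ▸ Submodule.mem_map_of_mem hx
      rw [show L' (φ x) = fun v => L x v ^ 3 from funext (hL' x)]
      generalize L x = f at hLx ⊢
      induction hLx using Submodule.span_induction with
      | mem f hf =>
        obtain ⟨w, rfl⟩ := hf
        rw [show (fun v => gen ι a w v ^ 3) = gen ι (shift a) w from funext fun v => (hgen w v).symm]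
        exact Submodule.subset_span ⟨w, rfl⟩
      | zero =>
        rw [show (fun v => (0 : Pt F → K) v ^ 3) = 0 from funext fun v => by simp]
        exact zero_mem _
      | add f g _ _ h1 h2 =>
        rw [show (fun v => (f + g) v ^ 3) = (fun v => f v ^ 3) + (fun v => g v ^ 3) from funext fun v => by
          haveI : Fact (Nat.Prime 3) := ⟨Nat.prime_three⟩
          simp only [Pi.add_apply]
          exact add_pow_char _ _ _]
        exact add_mem h1 h2
      | smul c f _ h1 =>
        rw [show (fun v => (c • f) v ^ 3) = c ^ 3 • (fun v => f v ^ 3) from funext fun v => by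
          simp [mul_pow]]
        exact Submodule.smul_mem _ _ h1
    · rw [W, Submodule.span_le]
      rintro _ ⟨w, rfl⟩
      obtain ⟨x, hx, hxe⟩ : gen ι a w ∈ B.map L := by
        rw [hmap]; exact Submodule.subset_span ⟨w, rfl⟩
      exact ⟨φ x, ⟨x, hx, rfl⟩, funext fun v => by rw [hL', hxe, hgen]⟩

include hq in
theorem Semi.img_hasL (hφ : Semi ρ φ) {A : Submodule K V} {M : Multiset (Fin n → Fin 3)}
    (h : HasL ι ρ A M) : HasL ι ρ (hφ.img ρ A) (M.map shift) := by
  induction h with
  | top =>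
    rw [Multiset.map_zero, show hφ.img ρ (⊤ : Submodule K V) = ⊤ from
      eq_top_iff.mpr fun x _ => ⟨_, Submodule.mem_top, (hφ.bij.2 x).choose_spec⟩]
    exact HasL.top
  | step hc hl _ ih =>
    rw [Multiset.map_cons]
    exact HasL.step (hφ.img_cov ρ hc) (hφ.img_lab ι hq ρ hl) ih

variable {J : Type*} [Fintype J] [DecidableEq J]

/-- The representation over the closed field. -/
noncomputable def extRep (K : Type*) [Field K] [CharP K 3]
    (ρ₀ : SL(2, F) →* Matrix J J (ZMod 3)) : SL(2, F) →* Module.End K (J → K) :=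
  ((Matrix.toLinAlgEquiv' (R := K) (n := J)).toMulEquiv.toMonoidHom.comp
    (ZMod.castHom dvd_rfl K).mapMatrix.toMonoidHom).comp ρ₀

theorem extRep_apply (ρ₀ : SL(2, F) →* Matrix J J (ZMod 3)) (g : SL(2, F)) :
    extRep K ρ₀ g = Matrix.toLin' ((ρ₀ g).map (ZMod.castHom (dvd_refl 3) K)) := rfl

include hq in
/-- Multiplicities of the labels in a representation over the field of three elements. -/
theorem exists_mult (ρ₀ : SL(2, F) →* Matrix J J (ZMod 3)) (hneg : ρ₀ (-1) = 1) :
    ∃ m : (Fin n → Fin 3) → ℕ, (∀ a, m (shift a) = m a) ∧ (∀ a, m a ≠ 0 → Even (lam a)) ∧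
      ∑ a, m a * wdim a = Fintype.card J ∧
      ∀ (g : SL(2, F)) (N : ℕ), g ^ N = 1 → (N : K) ≠ 0 → ∀ (μ : K) (l l' : K × K),
        EigData ι g μ l → EigData ι g μ⁻¹ l' → l.1 * l'.2 - l.2 * l'.1 ≠ 0 → ∀ ν : K,
          finrank K ↥(Module.End.eigenspace
            (Matrix.toLin' ((ρ₀ g).map (ZMod.castHom (dvd_refl 3) K))) ν) =
            ∑ a, m a * eigCount μ a ν := by
  classical
  set ρ := extRep K ρ₀ with hρ
  have hbot : Inv ρ (⊥ : Submodule K (J → K)) := fun g x hx => by
    rw [Submodule.mem_bot] at hx ⊢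
    rw [hx, map_zero]
  obtain ⟨M, hM⟩ := exists_hasL ι hq ρ hbot
  haveI : Fact (Nat.Prime 3) := ⟨Nat.prime_three⟩
  let φ : (J → K) → (J → K) := fun x i => x i ^ 3
  have hφ : Semi ρ φ := by
    refine ⟨fun x y => funext fun i => add_pow_char _ _ _, fun c x => funext fun i => mul_pow _ _ _,
      ⟨fun x y h => funext fun i => frobenius_inj K 3 (congrFun h i),
        fun x => ⟨fun i => (IsAlgClosed.exists_pow_nat_eq (x i) (show 0 < 3 by norm_num)).choose,
          funext fun i =>
            (IsAlgClosed.exists_pow_nat_eq (x i) (show 0 < 3 by norm_num)).choose_spec⟩⟩,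
      fun g x => funext fun i => ?_⟩
    show (ρ g x i) ^ 3 = ρ g (φ x) i
    rw [hρ, extRep_apply, Matrix.toLin'_apply, Matrix.toLin'_apply, Matrix.mulVec, Matrix.mulVec,
      dotProduct, dotProduct, ← frobenius_def, map_sum]
    refine Finset.sum_congr rfl fun j _ => ?_
    rw [map_mul, frobenius_def, frobenius_def, Matrix.map_apply, ← map_pow, ZMod.pow_card]
  have hMs : M.map shift = M := by
    refine hasL_unique ι hq ρ ?_ hM
    have h := hφ.img_hasL ι hq ρ hM
    rwa [show hφ.img ρ (⊥ : Submodule K (J → K)) = ⊥ from eq_bot_iff.mpr ?_] at h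
    rintro _ ⟨x, hx, rfl⟩
    rw [Submodule.bot_coe, Set.mem_singleton_iff] at hx
    simp [φ, hx, funext_iff]
  have hcount : ∀ (f : (Fin n → Fin 3) → ℕ), (M.map f).sum = ∑ a, M.count a * f a := fun f => by
    rw [Finset.sum_multiset_map_count]
    simp only [smul_eq_mul]
    refine Finset.sum_subset (Finset.subset_univ _) fun a _ ha => ?_
    rw [Multiset.mem_toFinset, ← Multiset.count_eq_zero] at ha
    rw [ha, zero_mul]
  refine ⟨fun a => M.count a, fun a => ?_, fun a ha => ?_, ?_, ?_⟩
  · show M.count (shift a) = M.count a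
    nth_rw 1 [← hMs]
    refine Multiset.count_map_eq_count' shift M (fun x y h => funext fun i => ?_) a
    have := congrFun h (finRotate n i)
    simp only [shift, Equiv.symm_apply_apply] at this
    exact this
  · have ha' : a ∈ M := Multiset.count_ne_zero.mp ha
    have hρneg : ∀ x, ρ (-1) x = x := fun x => by
      rw [hρ, extRep_apply, hneg, Matrix.map_one _ (map_zero _) (map_one _)]
      simp
    have key : ∀ (A : Submodule K (J → K)) (M : Multiset (Fin n → Fin 3)), HasL ι ρ A M →
        ∀ b ∈ M, Even (lam b) := by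
      intro A M h
      induction h with
      | top => simp
      | step hc hl _ ih =>
        intro b hb
        rcases Multiset.mem_cons.mp hb with rfl | hb
        · exact even_of_lab ι ρ hl hρneg
        · exact ih b hb
    exact key _ _ hM a ha'
  · rw [← hcount, ← Module.finrank_fintype_fun_eq_card K, dim_sum ι hq ρ hM, finrank_bot, zero_add]
  · intro g N hN hN0 μ l l' hl hl' hll ν
    rw [← extRep_apply, eig_sum ι ρ hM hN hN0 ν, bot_inf_eq, finrank_bot, zero_add, hcount]
    exact Finset.sum_congr rfl fun a _ => by rw [finrank_W_eigen ι hq hl hl' hll]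

end CfsgLib.SLTwoDef56
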