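import Cfsg.Agent.SLTwoDef56.Basic

/-!
The composition factors of a representation of `SL(2, 3 ^ n)` in characteristic three.
-/

set_option autoImplicit false
set_option linter.unusedSectionVars false

namespace CfsgLib.SLTwoDef56

open Module
open scoped MatrixGroups

variable {F : Type*} [Field F]

def uMat (b : F) : SL(2, F) := ⟨!![1, b; 0, 1], by simp [Matrix.det_fin_two]⟩

def tMat (c : Fˣ) : SL(2, F) :=
  ⟨!![(c : F), 0; 0, ((c⁻¹ : Fˣ) : F)], by simp [Matrix.det_fin_two]⟩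

def wMat : SL(2, F) := ⟨!![0, 1; -1, 0], by simp [Matrix.det_fin_two]⟩

theorem uMat_add (a b : F) : uMat (a + b) = uMat a * uMat b := by
  apply Subtype.ext
  rw [Matrix.SpecialLinearGroup.coe_mul]
  simp [uMat, Matrix.mul_fin_two, add_comm]

theorem uMat_zero : uMat (0 : F) = 1 := by
  ext i j
  fin_cases i <;> fin_cases j <;> simp [uMat]

theorem tMat_mul (c d : Fˣ) : tMat (c * d) = tMat c * tMat d := by
  apply Subtype.ext
  rw [Matrix.SpecialLinearGroup.coe_mul]
  simp [tMat, Matrix.mul_fin_two, mul_comm]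

theorem tMat_one : tMat (1 : Fˣ) = 1 := by
  ext i j
  fin_cases i <;> fin_cases j <;> simp [tMat]

theorem tMat_uMat (c : Fˣ) (b : F) : tMat c * uMat b = uMat ((c : F) ^ 2 * b) * tMat c := by
  apply Subtype.ext
  rw [Matrix.SpecialLinearGroup.coe_mul, Matrix.SpecialLinearGroup.coe_mul]
  simp [tMat, uMat, Matrix.mul_fin_two]
  field_simp

theorem vmul_uMat (v : F × F) (b : F) : vmul v (uMat b) = (v.1, v.1 * b + v.2) := by
  simp [vmul, uMat]

theorem vmul_tMat (v : F × F) (c : Fˣ) :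
    vmul v (tMat c) = (v.1 * (c : F), v.2 * ((c⁻¹ : Fˣ) : F)) := by
  simp [vmul, tMat]

theorem vmul_wMat (v : F × F) : vmul v wMat = (-v.2, v.1) := by
  simp [vmul, wMat]

variable {K : Type*} [Field K] [CharP K 3]

/-- A family of commuting unipotents has a common fixed vector. -/
theorem exists_fixed [Finite F] {V : Type*} [AddCommGroup V] [Module K V] (h3F : (3 : F) = 0)
    (T : F → V →ₗ[K] V) (hadd : ∀ a b v, T (a + b) v = T a (T b v)) (h0 : ∀ v, T 0 v = v)
    (Y : Submodule K V) (hY : Y ≠ ⊥) (hst : ∀ b, ∀ v ∈ Y, T b v ∈ Y) :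
    ∃ y ∈ Y, y ≠ 0 ∧ ∀ b, T b y = y := by
  classical
  haveI := Fintype.ofFinite F
  suffices h : ∀ s : Finset F, ∃ y ∈ Y, y ≠ 0 ∧ ∀ b ∈ s, T b y = y by
    obtain ⟨y, hy, hy0, hb⟩ := h Finset.univ
    exact ⟨y, hy, hy0, fun b => hb b (Finset.mem_univ b)⟩
  intro s
  induction s using Finset.induction_on with
  | empty =>
    obtain ⟨y, hy, hy0⟩ := (Submodule.ne_bot_iff _).mp hY
    exact ⟨y, hy, hy0, fun b hb => absurd hb (Finset.notMem_empty b)⟩
  | insert b s _ ih =>
    obtain ⟨y, hy, hy0, hs⟩ := ih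
    have step : ∀ z, z ∈ Y → (∀ c ∈ s, T c z = z) →
        (T b z - z ∈ Y ∧ ∀ c ∈ s, T c (T b z - z) = T b z - z) := fun z hz hc =>
      ⟨Y.sub_mem (hst b z hz) hz, fun c hcs => by
        rw [map_sub, ← hadd, add_comm, hadd, hc c hcs]⟩
    set y1 := T b y - y with hy1
    obtain ⟨hy1Y, hy1s⟩ := step y hy hs
    set y2 := T b y1 - y1 with hy2
    obtain ⟨hy2Y, hy2s⟩ := step y1 hy1Y hy1s
    have h3 : T b y2 - y2 = 0 := by
      have e : T b (T b (T b y)) = y := by
        rw [← hadd, ← hadd, show b + b + b = (3 : F) * b by ring, h3F, zero_mul, h0]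
      have h3K : ((3 : ℕ) : K) = 0 := CharP.cast_eq_zero K 3
      have h3V : ∀ x : V, (3 : ℕ) • x = 0 := fun x => by
        rw [← Nat.cast_smul_eq_nsmul K, h3K, zero_smul]
      have e2 : T b y2 - y2 = T b (T b (T b y)) - y - ((3 : ℕ) • (T b (T b y) - T b y)) := by
        rw [hy2, hy1]; simp only [map_sub]; abel
      rw [e2, e, h3V, sub_self, sub_zero]
    have fin : ∀ z ∈ Y, z ≠ 0 → (∀ c ∈ s, T c z = z) → T b z - z = 0 →
        ∃ y ∈ Y, y ≠ 0 ∧ ∀ c ∈ insert b s, T c y = y := fun z hz hz0 hzs hb =>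
      ⟨z, hz, hz0, fun c hc => by
        rcases Finset.mem_insert.mp hc with rfl | hc
        · exact sub_eq_zero.mp hb
        · exact hzs c hc⟩
    by_cases c1 : y1 = 0
    · exact fin y hy hy0 hs c1
    by_cases c2 : y2 = 0
    · exact fin y1 hy1Y c1 hy1s c2
    exact fin y2 hy2Y c2 hy2s h3

variable (ι : F →+* K)

open scoped Classical in
/-- A function fixed by the unipotent radical. -/
noncomputable def f2 (l : ℕ) : Pt F → K := fun v => if v.1.1 = 0 then 0 else ι v.1.1 ^ l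

open scoped Classical in
/-- A function fixed by the unipotent radical, supported on a line. -/
noncomputable def f1 (l : ℕ) : Pt F → K := fun v => if v.1.1 = 0 then ι v.1.2 ^ l else 0

/-- Homogeneity. -/
def IsHom (l : ℕ) (f : Pt F → K) : Prop :=
  ∀ (c : F) (v w : Pt F), w.1 = (c * v.1.1, c * v.1.2) → f w = ι c ^ l * f v

theorem fixed_form {l : ℕ} {f : Pt F → K} (hf : IsHom ι l f)
    (hfix : ∀ b, act K (uMat b) f = f) : ∃ A B : K, f = A • f2 ι l + B • f1 ι l := by
  classical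
  refine ⟨f ⟨(1, 0), fun h => one_ne_zero (congrArg Prod.fst h)⟩,
    f ⟨(0, 1), fun h => one_ne_zero (congrArg Prod.snd h)⟩, funext fun v => ?_⟩
  obtain ⟨⟨x, y⟩, hv⟩ := v
  by_cases hx : x = 0
  · subst hx
    rw [Pi.add_apply, Pi.smul_apply, Pi.smul_apply, f2, f1, if_pos rfl, if_pos rfl, smul_zero,
      zero_add, smul_eq_mul, mul_comm]
    exact hf y _ _ (by simp)
  · rw [Pi.add_apply, Pi.smul_apply, Pi.smul_apply, f2, f1, if_neg hx, if_neg hx, smul_zero,
      add_zero, smul_eq_mul, mul_comm]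
    have h1 := congrFun (hfix (-y / x)) ⟨(x, y), hv⟩
    rw [act_apply] at h1
    rw [← h1]
    exact hf x _ _ (by simp only [pmul, vmul_uMat]; field_simp; simp)

variable [Fintype F]

/-- The symmetrising operator. -/
def phi (K : Type*) [Field K] (f : Pt F → K) : Pt F → K := ∑ b : F, act K (uMat b * wMat) f

theorem phi_smul_add (A B : K) (f g : Pt F → K) :
    phi K (A • f + B • g) = A • phi K f + B • phi K g := by
  simp [phi, Finset.sum_add_distrib, Finset.smul_sum]

theorem pmul_uw (v : Pt F) (b : F) :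
    (pmul v (uMat b * wMat)).1 = (-(v.1.1 * b + v.1.2), v.1.1) := by
  simp only [pmul, vmul_mul, vmul_uMat, vmul_wMat]

theorem phi_f1 (l : ℕ) : phi K (f1 ι l) = f2 ι l := by
  classical
  funext v
  simp only [phi, Finset.sum_apply, act_apply, f1, f2, pmul_uw, neg_eq_zero]
  obtain ⟨⟨x, y⟩, hv⟩ := v
  dsimp only
  by_cases hx : x = 0
  · subst hx
    have hy : y ≠ 0 := fun h => hv (by rw [h]; rfl)
    simp [hy]
  · rw [if_neg hx, Finset.sum_eq_single (-y / x)]
    · rw [if_pos (by field_simp; ring)]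
    · intro b _ hb
      rw [if_neg]
      intro h
      exact hb (by field_simp; linear_combination h)
    · exact fun h => absurd (Finset.mem_univ _) h

include ι in
theorem three_eq_zero : (3 : F) = 0 := by
  haveI : CharP F 3 := RingHom.charP ι ι.injective 3
  exact_mod_cast CharP.cast_eq_zero F 3

include ι in
theorem card_cast_zero : (Fintype.card F : K) = 0 := by
  rw [← map_natCast ι, FiniteField.cast_card_eq_zero, map_zero]

theorem phi_f2 {l : ℕ} (h0 : 0 < l) (hl : l < Fintype.card F - 1) :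
    phi K (f2 ι l) = 0 := by
  classical
  funext v
  simp only [phi, Finset.sum_apply, act_apply, f2, pmul_uw, Pi.zero_apply]
  obtain ⟨⟨x, y⟩, hv⟩ := v
  dsimp only
  have e : ∀ b : F, (if -(x * b + y) = 0 then (0 : K) else ι (-(x * b + y)) ^ l) =
      ι (-(x * b + y)) ^ l := fun b => by
    split_ifs with h
    · rw [h, map_zero, zero_pow h0.ne']
    · rfl
  simp only [e]
  by_cases hx : x = 0
  · subst hx
    simp [Finset.card_univ, card_cast_zero ι]
  · let e' : F ≃ F :=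
      { toFun := fun b => -(x * b + y)
        invFun := fun z => (-z - y) / x
        left_inv := fun b => by field_simp; ring
        right_inv := fun z => by field_simp; ring }
    rw [show (∑ b : F, ι (-(x * b + y)) ^ l) = ∑ b : F, ι (e' b) ^ l from rfl,
      Equiv.sum_comp e' (fun z => ι z ^ l)]
    simp only [← map_pow, ← map_sum, FiniteField.sum_pow_lt_card_sub_one F l hl, map_zero]

theorem phi_f2_zero : phi K (f2 ι 0) = -f2 ι 0 := by
  classical
  funext v
  simp only [phi, Finset.sum_apply, act_apply, f2, pmul_uw, Pi.neg_apply, neg_eq_zero, pow_zero]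
  obtain ⟨⟨x, y⟩, hv⟩ := v
  dsimp only
  by_cases hx : x = 0
  · subst hx
    have hy : y ≠ 0 := fun h => hv (by rw [h]; rfl)
    simp [hy, Finset.card_univ, card_cast_zero ι]
  · rw [if_neg hx]
    have hu : ∀ b : F, (x * b + y = 0) ↔ b = -y / x := fun b => by
      constructor
      · intro h; field_simp; linear_combination h
      · rintro rfl; field_simp; ring
    simp only [hu]
    rw [← Finset.add_sum_erase _ _ (Finset.mem_univ (-y / x)), if_pos rfl, zero_add,
      Finset.sum_congr rfl fun b hb => if_neg (Finset.ne_of_mem_erase hb), Finset.sum_const,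
      nsmul_one, Finset.card_erase_of_mem (Finset.mem_univ _), Finset.card_univ,
      Nat.cast_sub Fintype.card_pos, card_cast_zero ι]
    simp

/-- The first basis vector. -/
def e1 : Pt F := ⟨(1, 0), fun h => one_ne_zero (congrArg Prod.fst h)⟩

variable {n : ℕ} (a : Fin n → Fin 3)

theorem gen_e1 (v : Pt F) : gen ι a e1 v = ι v.1.1 ^ lam a := by
  simp [gen, e1]

theorem gen_e1_pos (h : 0 < lam a) : gen ι a e1 = f2 ι (lam a) := by
  classical
  funext v
  rw [gen_e1, f2]
  split_ifs with h0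
  · rw [h0, map_zero, zero_pow h.ne']
  · rfl

theorem gen_e1_zero (h : lam a = 0) : gen ι a e1 = f2 ι 0 + f1 ι 0 := by
  classical
  funext v
  rw [gen_e1, h, Pi.add_apply, f2, f1]
  split_ifs <;> simp

theorem f2_card_sub_one : f2 ι (Fintype.card F - 1) = f2 ι 0 := by
  classical
  funext v
  rw [f2, f2]
  split_ifs with h0
  · rfl
  · rw [← map_pow, FiniteField.pow_card_sub_one_eq_one _ h0, map_one, pow_zero]

theorem W_le_of_e1 {R : Submodule K (Pt F → K)} (hR : ∀ g, ∀ f ∈ R, act K g f ∈ R)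
    (h : gen ι a e1 ∈ R) : W ι a ≤ R := by
  rw [W, Submodule.span_le]
  rintro _ ⟨⟨⟨x, y⟩, hw⟩, rfl⟩
  obtain ⟨g, h0, h1⟩ : ∃ g : SL(2, F), g 0 0 = x ∧ g 1 0 = y := by
    by_cases hx : x = 0
    · subst hx
      have hy : y ≠ 0 := fun h => hw (by rw [h]; rfl)
      exact ⟨⟨!![0, -y⁻¹; y, 0], by simp [Matrix.det_fin_two, hy]⟩, rfl, rfl⟩
    · exact ⟨⟨!![x, 0; y, x⁻¹], by simp [Matrix.det_fin_two, hx]⟩, rfl, rfl⟩
  have e : gen ι a ⟨(x, y), hw⟩ = act K g (gen ι a e1) := by
    funext v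
    rw [act_apply, gen_e1, gen]
    simp only [pmul, vmul, h0, h1]
    congr 2
    ring
  rw [e]
  exact hR g _ h

/-! ### Invariant subspaces and their labels -/

variable {V : Type*} [AddCommGroup V] [Module K V] (ρ : SL(2, F) →* Module.End K V)

/-- Invariant subspaces. -/
def Inv (A : Submodule K V) : Prop := ∀ g, ∀ x ∈ A, ρ g x ∈ A

/-- Covering pairs of invariant subspaces. -/
def Cov (A B : Submodule K V) : Prop :=
  Inv ρ A ∧ Inv ρ B ∧ A < B ∧ ∀ X, Inv ρ X → A ≤ X → X ≤ B → X = A ∨ X = B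

/-- The factor `B / A` is the module of the label `a`. -/
def Lab (A B : Submodule K V) : Prop :=
  A ≤ B ∧ ∃ L : V →ₗ[K] (Pt F → K), (∀ x ∈ B, (L x = 0 ↔ x ∈ A)) ∧
    (∀ g, ∀ x ∈ B, L (ρ g x) = act K g (L x)) ∧ B.map L = W ι a

theorem exists_mem_roots {μ : K} (h : μ ^ Fintype.card F = μ) : ∃ y : F, ι y = μ := by
  classical
  set q := Fintype.card F with hqdef
  have hq1 : 1 < q := Fintype.one_lt_card
  have hne : (Polynomial.X ^ q - Polynomial.X : Polynomial K) ≠ 0 :=
    FiniteField.X_pow_card_sub_X_ne_zero K hq1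
  by_contra hno
  rw [not_exists] at hno
  have h2 : ((Finset.univ.image ι) ∪ {μ}).card ≤ q := by
    refine (Finset.card_le_card (t := (Polynomial.X ^ q - Polynomial.X : Polynomial K).roots.toFinset)
      fun y hy => ?_).trans ((Multiset.toFinset_card_le _).trans
        ((Polynomial.card_roots' _).trans (FiniteField.X_pow_card_sub_X_natDegree_eq K hq1).le))
    rw [Multiset.mem_toFinset, Polynomial.mem_roots hne]
    rcases Finset.mem_union.mp hy with hy | hy
    · obtain ⟨z, -, rfl⟩ := Finset.mem_image.mp hy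
      simp [hqdef, ← map_pow, FiniteField.pow_card]
    · rw [Finset.mem_singleton.mp hy]
      simp [h]
  rw [Finset.card_union_of_disjoint (by simpa using hno),
    Finset.card_image_of_injective _ ι.injective, Finset.card_univ, Finset.card_singleton] at h2
  omega

theorem exists_second_row (v : Pt F) : ∃ g : SL(2, F), g 1 0 = v.1.1 ∧ g 1 1 = v.1.2 := by
  obtain ⟨⟨x, y⟩, hv⟩ := v
  by_cases hx : x = 0
  · subst hx
    have hy : y ≠ 0 := fun h => hv (by rw [h]; rfl)
    exact ⟨⟨!![y⁻¹, 0; 0, y], by simp [Matrix.det_fin_two, hy]⟩, rfl, rfl⟩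
  · exact ⟨⟨!![0, -x⁻¹; x, y], by simp [Matrix.det_fin_two, hx]⟩, rfl, rfl⟩

theorem eq_uMat_mul {g g' : SL(2, F)} (h0 : g 1 0 = g' 1 0) (h1 : g 1 1 = g' 1 1) :
    ∃ b, g' = uMat b * g := by
  have hd : g 0 0 * g 1 1 - g 0 1 * g 1 0 = 1 := by
    rw [← Matrix.det_fin_two (g : Matrix (Fin 2) (Fin 2) F)]; exact g.2
  have hd' : g' 0 0 * g' 1 1 - g' 0 1 * g' 1 0 = 1 := by
    rw [← Matrix.det_fin_two (g' : Matrix (Fin 2) (Fin 2) F)]; exact g'.2
  rw [← h0, ← h1] at hd'
  by_cases hx : g 1 0 = 0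
  · have hy : g 1 1 ≠ 0 := fun h => by rw [hx, h] at hd; simp at hd
    refine ⟨(g' 0 1 - g 0 1) / g 1 1, Subtype.ext (Matrix.ext fun i j => ?_)⟩
    rw [Matrix.SpecialLinearGroup.coe_mul]
    fin_cases i <;> fin_cases j <;>
      simp [uMat, Matrix.mul_apply, Fin.sum_univ_two, hx, ← h0, ← h1]
    · rw [hx, mul_zero, sub_zero] at hd hd'
      exact mul_right_cancel₀ hy (hd'.trans hd.symm)
    · field_simp; ring
  · refine ⟨(g' 0 0 - g 0 0) / g 1 0, Subtype.ext (Matrix.ext fun i j => ?_)⟩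
    rw [Matrix.SpecialLinearGroup.coe_mul]
    fin_cases i <;> fin_cases j <;>
      simp [uMat, Matrix.mul_apply, Fin.sum_univ_two, ← h0, ← h1]
    · field_simp; ring
    · field_simp; linear_combination hd - hd'

theorem exists_lab [IsAlgClosed K] [FiniteDimensional K V] (hq : Fintype.card F = 3 ^ n)
    {A B : Submodule K V} (hcov : Cov ρ A B) : ∃ a : Fin n → Fin 3, Lab ι a ρ A B := by
  classical
  obtain ⟨hA, hB, hlt, hmax⟩ := hcov
  let R : SL(2, F) → (↥B →ₗ[K] ↥B) := fun g => (ρ g).restrict (hB g)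
  have hR : ∀ g h x, R (g * h) x = R g (R h x) := fun g h x => Subtype.ext (by simp [R, map_mul])
  have hR1 : ∀ x, R 1 x = x := fun x => Subtype.ext (by simp [R])
  let Dl : SL(2, F) → (Dual K ↥B →ₗ[K] Dual K ↥B) := fun g => (R g).dualMap
  have hD : ∀ g φ x, Dl g φ x = φ (R g x) := fun g φ x => rfl
  let X : Submodule K (Dual K ↥B) := (A.comap B.subtype).dualAnnihilator
  have hX : X ≠ ⊥ := by
    have hne : A.comap B.subtype < ⊤ := by
      rw [lt_top_iff_ne_top, Ne, Submodule.comap_subtype_eq_top]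
      exact fun h => (not_le_of_gt hlt) h
    obtain ⟨φ, hφ0, hφ⟩ := Submodule.exists_dual_map_eq_bot_of_lt_top hne inferInstance
    refine (Submodule.ne_bot_iff _).mpr ⟨φ, ?_, hφ0⟩
    rw [Submodule.mem_dualAnnihilator]
    intro x hx
    have : φ x ∈ (A.comap B.subtype).map φ := Submodule.mem_map_of_mem hx
    rwa [hφ, Submodule.mem_bot] at this
  have hXst : ∀ g, ∀ φ ∈ X, Dl g φ ∈ X := fun g φ hφ => by
    rw [Submodule.mem_dualAnnihilator] at hφ ⊢
    exact fun x hx => hφ (R g x) (hA g _ hx)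
  let Y : Submodule K (Dual K ↥B) :=
    X ⊓ ⨅ b : F, LinearMap.ker (Dl (uMat b) - LinearMap.id)
  have hYmem : ∀ φ, φ ∈ Y ↔ φ ∈ X ∧ ∀ b, Dl (uMat b) φ = φ := fun φ => by
    simp [Y, sub_eq_zero]
  have hY : Y ≠ ⊥ := by
    obtain ⟨y, hy, hy0, hfix⟩ := exists_fixed (three_eq_zero ι) (fun b => Dl (uMat b))
      (fun a b φ => by ext x; simp only [hD, ← hR, ← uMat_add, add_comm a b])
      (fun φ => by ext x; simp only [hD, uMat_zero, hR1]) X hX (fun b => hXst (uMat b))
    exact (Submodule.ne_bot_iff _).mpr ⟨y, (hYmem y).mpr ⟨hy, hfix⟩, hy0⟩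
  obtain ⟨γ, hγ⟩ := IsCyclic.exists_generator (α := Fˣ)
  have hYst : ∀ φ ∈ Y, Dl (tMat γ) φ ∈ Y := fun φ hφ => by
    rw [hYmem] at hφ ⊢
    refine ⟨hXst _ _ hφ.1, fun b => ?_⟩
    ext x
    rw [hD, hD, ← hR, tMat_uMat, hR, ← hD (uMat _), hφ.2, hD]
  haveI : Nontrivial ↥Y := Submodule.nontrivial_iff_ne_bot.mpr hY
  let E : Module.End K ↥Y := (Dl (tMat γ)).restrict hYst
  obtain ⟨μ, hμ⟩ := Module.End.exists_eigenvalue (K := K) (V := ↥Y) E
  obtain ⟨φ', hφ'⟩ := hμ.exists_hasEigenvector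
  set φ : Dual K ↥B := (φ' : Dual K ↥B) with hφdef
  have hφ0 : φ ≠ 0 := fun h => hφ'.2 (Subtype.ext h)
  obtain ⟨hφX, hφU⟩ := (hYmem φ).mp φ'.2
  have hφt : ∀ x, φ (R (tMat γ) x) = μ * φ x := fun x => by
    have := congrArg (fun ψ : ↥Y => (ψ : Dual K ↥B) x) hφ'.apply_eq_smul
    simpa [E, ← hD, hφdef] using this
  have hpow : ∀ (k : ℕ) x, φ (R (tMat (γ ^ k)) x) = μ ^ k * φ x := by
    intro k
    induction k with
    | zero => intro x; rw [pow_zero, tMat_one, hR1, pow_zero, one_mul]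
    | succ k ih => intro x; rw [pow_succ, tMat_mul, hR, ih, hφt, pow_succ, mul_assoc]
  have hμ1 : μ ^ (Fintype.card F - 1) = 1 := by
    obtain ⟨x, hx⟩ : ∃ x, φ x ≠ 0 := by
      by_contra h; rw [not_exists] at h; exact hφ0 (LinearMap.ext fun x => not_not.mp (h x))
    have := hpow (Fintype.card F - 1) x
    rw [show γ ^ (Fintype.card F - 1) = 1 by rw [← Fintype.card_units]; exact pow_card_eq_one,
      tMat_one, hR1] at this
    exact (mul_left_eq_self₀.mp this.symm).resolve_right hx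
  have hμ0 : μ ≠ 0 := fun h => by
    rw [h, zero_pow (by have := Fintype.one_lt_card (α := F); omega)] at hμ1
    exact zero_ne_one hμ1
  obtain ⟨y, hy⟩ := exists_mem_roots ι (μ := μ⁻¹) (by
    rw [show Fintype.card F = Fintype.card F - 1 + 1 by have := Fintype.card_pos (α := F); omega,
      pow_succ, inv_pow, hμ1, inv_one, one_mul])
  have hy0 : y ≠ 0 := fun h => by rw [h, map_zero, zero_eq_inv] at hy; exact hμ0 hy.symm
  obtain ⟨j, hj⟩ : ∃ j : ℕ, γ ^ j = Units.mk0 y hy0 :=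
    (Submonoid.mem_powers_iff _ _).mp ((mem_powers_iff_mem_zpowers).mpr (hγ _))
  set l := j % (Fintype.card F - 1) with hl
  have hl1 : l < Fintype.card F - 1 :=
    Nat.mod_lt _ (by have := Fintype.one_lt_card (α := F); omega)
  have hlμ : ι (γ : F) ^ l = μ⁻¹ := by
    have e : γ ^ l = Units.mk0 y hy0 := by
      rw [← hj, hl]
      nth_rw 2 [← Nat.mod_add_div j (Fintype.card F - 1)]
      rw [pow_add, pow_mul, ← Fintype.card_units, pow_card_eq_one, one_pow, mul_one]
    rw [← map_pow, ← Units.val_pow_eq_pow_val, e, Units.val_mk0, hy]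
  -- the map to the functions
  let g0 : Pt F → SL(2, F) := fun v => (exists_second_row v).choose
  have hg0 : ∀ v, g0 v 1 0 = v.1.1 ∧ g0 v 1 1 = v.1.2 := fun v => (exists_second_row v).choose_spec
  have hwell : ∀ (g : SL(2, F)) (v : Pt F) x, g 1 0 = v.1.1 → g 1 1 = v.1.2 →
      φ (R g x) = φ (R (g0 v) x) := fun g v x h0 h1 => by
    obtain ⟨b, rfl⟩ := eq_uMat_mul ((hg0 v).1.trans h0.symm) ((hg0 v).2.trans h1.symm)
    rw [hR, ← hD (uMat b), hφU]
  let L0 : ↥B →ₗ[K] (Pt F → K) := LinearMap.pi fun v => φ.comp (R (g0 v))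
  have hL0 : ∀ x v, L0 x v = φ (R (g0 v) x) := fun x v => rfl
  obtain ⟨L, hL⟩ := LinearMap.exists_extend L0
  have hLv : ∀ x (hx : x ∈ B) v, L x v = φ (R (g0 v) ⟨x, hx⟩) := fun x hx v => by
    rw [← hL0, ← hL]; rfl
  have hequiv : ∀ g, ∀ x ∈ B, L (ρ g x) = act K g (L x) := fun g x hx => funext fun v => by
    rw [act_apply, hLv _ (hB g x hx), hLv x hx, show (⟨ρ g x, hB g x hx⟩ : ↥B) = R g ⟨x, hx⟩ from rfl,
      ← hR]
    refine hwell _ _ _ ?_ ?_ <;> rw [Matrix.SpecialLinearGroup.coe_mul] <;>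
      simp [pmul, vmul, Matrix.mul_apply, Fin.sum_univ_two, hg0 v]
  have hhom : ∀ x ∈ B, IsHom ι l (L x) := by
    intro x hx
    have h1 : ∀ v w : Pt F, w.1 = ((γ : F) * v.1.1, (γ : F) * v.1.2) →
        L x w = μ⁻¹ * L x v := by
      intro v w hw
      rw [hLv x hx, hLv x hx, eq_inv_mul_iff_mul_eq₀ hμ0, ← hφt, ← hR]
      have e1 : w.1.1 = (γ : F) * v.1.1 := congrArg Prod.fst hw
      have e2 : w.1.2 = (γ : F) * v.1.2 := congrArg Prod.snd hw
      refine hwell _ _ _ ?_ ?_ <;> rw [Matrix.SpecialLinearGroup.coe_mul] <;>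
        simp [tMat, Matrix.mul_apply, Fin.sum_univ_two, hg0 w, e1, e2]
    have h2 : ∀ (k : ℕ) (v w : Pt F), w.1 = ((γ : F) ^ k * v.1.1, (γ : F) ^ k * v.1.2) →
        L x w = μ⁻¹ ^ k * L x v := by
      intro k
      induction k with
      | zero =>
        intro v w hw
        simp only [pow_zero, one_mul] at hw ⊢
        rw [show w = v from Subtype.ext hw]
      | succ k ih =>
        intro v w hw
        let u : Pt F := ⟨((γ : F) ^ k * v.1.1, (γ : F) ^ k * v.1.2), fun h => by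
          simp only [Prod.mk_eq_zero, mul_eq_zero, pow_eq_zero_iff', Units.ne_zero, false_and,
            false_or] at h
          exact v.2 (Prod.ext h.1 h.2)⟩
        rw [h1 u w (by rw [hw, pow_succ', mul_assoc, mul_assoc]), ih v u rfl, pow_succ', mul_assoc]
    intro c v w hw
    have hc : c ≠ 0 := fun h => w.2 (by rw [hw, h, zero_mul, zero_mul]; rfl)
    obtain ⟨k, hk⟩ := (Submonoid.mem_powers_iff _ _).mp
      ((mem_powers_iff_mem_zpowers).mpr (hγ (Units.mk0 c hc)))
    have hck : c = (γ : F) ^ k := by rw [← Units.val_pow_eq_pow_val, hk, Units.val_mk0]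
    rw [h2 k v w (by rw [hw, hck]), ← hlμ, ← pow_mul, mul_comm l, pow_mul, ← map_pow, ← hck]
  have hker : ∀ x ∈ B, (L x = 0 ↔ x ∈ A) := by
    have hsub : ∀ x ∈ A, L x = 0 := fun x hx => funext fun v => by
      rw [hLv x (hlt.le hx)]
      exact (Submodule.mem_dualAnnihilator _).mp hφX _ (hA _ x hx)
    have hN := hmax (B ⊓ LinearMap.ker L)
      (fun g x hx => by
        simp only [Submodule.mem_inf, LinearMap.mem_ker] at hx ⊢
        exact ⟨hB g x hx.1, by rw [hequiv g x hx.1, hx.2, map_zero]⟩)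
      (fun x hx => ⟨hlt.le hx, hsub x hx⟩) inf_le_left
    rcases hN with hN | hN
    · exact fun x hx => ⟨fun h => hN.le ⟨hx, h⟩, hsub x⟩
    · exfalso
      refine hφ0 (LinearMap.ext fun x => ?_)
      have h0 : L (x : V) = 0 := (hN.ge x.2).2
      have := congrFun h0 ⟨(0, 1), fun h => one_ne_zero (congrArg Prod.snd h)⟩
      rw [hLv _ x.2, ← hwell 1 _ _ (by simp) (by simp), hR1] at this
      simpa using this
  -- a fixed vector in the range
  set Rg := B.map L with hRg
  have hRst : ∀ g, ∀ f ∈ Rg, act K g f ∈ Rg := by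
    rintro g _ ⟨x, hx, rfl⟩
    exact ⟨ρ g x, hB g x hx, hequiv g x hx⟩
  have hRne : Rg ≠ ⊥ := fun h => by
    obtain ⟨x, hx, hxA⟩ := Set.exists_of_ssubset hlt
    have : L x ∈ Rg := ⟨x, hx, rfl⟩
    rw [h, Submodule.mem_bot, hker x hx] at this
    exact hxA this
  obtain ⟨f, hf, hf0, hfU⟩ := exists_fixed (three_eq_zero ι) (fun b => act K (uMat b))
    (fun a b f => by rw [uMat_add, act_mul]) (fun f => by rw [uMat_zero, act_one]) Rg hRne
    (fun b => hRst (uMat b))
  obtain ⟨x0, hx0, rfl⟩ := hf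
  obtain ⟨cA, cB, hAB⟩ := fixed_form ι (hhom x0 hx0) hfU
  have hf : L x0 ∈ Rg := ⟨x0, hx0, rfl⟩
  have hphi : phi K (L x0) ∈ Rg := Submodule.sum_mem _ fun b _ => hRst _ _ hf
  rw [hAB, phi_smul_add, phi_f1] at hphi
  rw [hAB] at hf hf0
  obtain ⟨a, ha⟩ : ∃ a : Fin n → Fin 3, gen ι a e1 ∈ Rg := by
    rcases Nat.eq_zero_or_pos l with hl0 | hl0
    · rw [hl0] at hf hf0 hphi
      rw [phi_f2_zero] at hphi
      by_cases hAB' : cA = cB
      · refine ⟨fun _ => 0, ?_⟩
        rw [gen_e1_zero ι _ (by simp [lam])]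
        have hc : cB ≠ 0 := fun h => hf0 (by rw [hAB', h]; simp)
        rw [hAB', ← smul_add] at hf
        exact (Submodule.smul_mem_iff _ hc).mp hf
      · have hpos : 0 < Fintype.card F := Fintype.card_pos
        have hone : 1 < Fintype.card F := Fintype.one_lt_card
        refine ⟨digits3 n (Fintype.card F - 1) (by omega), ?_⟩
        rw [gen_e1_pos ι _ (by rw [lam_digits3]; omega), lam_digits3, f2_card_sub_one]
        rw [smul_neg, ← sub_eq_neg_add, ← sub_smul] at hphi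
        exact (Submodule.smul_mem_iff _ (sub_ne_zero.mpr (Ne.symm hAB'))).mp hphi
    · refine ⟨digits3 n l (by omega), ?_⟩
      rw [gen_e1_pos ι _ (by rwa [lam_digits3]), lam_digits3]
      rw [phi_f2 ι hl0 hl1, smul_zero, zero_add] at hphi
      by_cases hc : cB = 0
      · rw [hc, zero_smul, add_zero] at hf hf0
        exact (Submodule.smul_mem_iff _ (fun h => hf0 (by rw [h, zero_smul]))).mp hf
      · exact (Submodule.smul_mem_iff _ hc).mp hphi
  have hWR : W ι a ≤ Rg := W_le_of_e1 ι a hRst ha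
  refine ⟨a, hlt.le, L, hker, hequiv, le_antisymm ?_ hWR⟩
  rcases hmax (B ⊓ (W ι a).comap L)
    (fun g x hx => by
      simp only [Submodule.mem_inf, Submodule.mem_comap] at hx ⊢
      exact ⟨hB g x hx.1, by rw [hequiv g x hx.1]; exact act_mem_W g hx.2⟩)
    (fun x hx => ⟨hlt.le hx, show L x ∈ W ι a by
      rw [(hker x (hlt.le hx)).mpr hx]; exact zero_mem _⟩) inf_le_left with h | h
  · exfalso
    obtain ⟨x, hx, hxe⟩ := hWR (Submodule.subset_span ⟨e1, rfl⟩)
    have h1 : x ∈ A := h.le ⟨hx, show L x ∈ W ι a by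
      rw [hxe]; exact Submodule.subset_span ⟨e1, rfl⟩⟩
    rw [(hker x hx).mpr h1] at hxe
    have := congrFun hxe e1
    rw [gen_e1] at this
    simp [e1] at this
  · rintro _ ⟨x, hx, rfl⟩
    exact (h.ge hx).2

end CfsgLib.SLTwoDef56
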